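import Mathlib.GroupTheory.Sylow
import Mathlib.GroupTheory.Index
import Mathlib.GroupTheory.OrderOfElement
import Mathlib.Algebra.Group.Subgroup.Finite

/-!
A real element of an abelian Sylow subgroup, not equal to its inverse, forces an automizer of
even order (Burnside fusion).
-/

set_option autoImplicit false

namespace CfsgLib.Fusion

universe u

variable {G : Type u} [Group G]

/-- If an element of an abelian Sylow `p`-subgroup `P` is conjugate to its inverse and is not an
involution (or trivial), then `N(P)/C(P)` has even order. -/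
theorem two_dvd_automizer_of_real [Finite G] {p : ℕ} [Fact p.Prime] (P : Sylow p G)
    (hP : IsMulCommutative (P : Subgroup G)) {x : G} (hx : x ∈ P) (hx2 : x⁻¹ ≠ x)
    (hreal : IsConj x x⁻¹) :
    2 ∣ ((Subgroup.centralizer ((P : Subgroup G) : Set G)).subgroupOf
      (Subgroup.normalizer ((P : Subgroup G) : Set G))).index := by
  obtain ⟨g, hg⟩ := isConj_iff.1 hreal
  have hy : g⁻¹⁻¹ * x * g⁻¹ ∈ P := by
    rw [inv_inv, hg]
    exact inv_mem hx
  haveI : IsMulCommutative P := hP
  obtain ⟨n, hn, hne⟩ := P.conj_eq_normalizer_conj_of_mem x g⁻¹ hx hy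
  rw [inv_inv, hg] at hne
  set N : Subgroup G := Subgroup.normalizer ((P : Subgroup G) : Set G)
  set C : Subgroup G := Subgroup.centralizer ((P : Subgroup G) : Set G)
  haveI : (C.subgroupOf N).Normal :=
    Subgroup.normal_subgroupOf_centralizer_normalizer _
  by_contra hodd
  set k := (C.subgroupOf N).index with hk
  have hmem : (⟨n, hn⟩ : N) ^ k ∈ C.subgroupOf N := Subgroup.pow_index_mem _ _
  have hkC : (n ^ k)⁻¹ * x * n ^ k = x := by
    have h := hmem x hx
    simp only [Subgroup.coe_subtype, SubmonoidClass.coe_pow] at h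
    rw [mul_assoc, h]
    group
  have hpow : ∀ j : ℕ, (n ^ j)⁻¹ * x * n ^ j = if Even j then x else x⁻¹ := by
    intro j
    induction j with
    | zero => simp
    | succ j ih =>
      have : (n ^ (j + 1))⁻¹ * x * n ^ (j + 1) = n⁻¹ * ((n ^ j)⁻¹ * x * n ^ j) * n := by
        rw [pow_succ]; group
      rw [this, ih]
      by_cases hj : Even j
      · rw [if_pos hj, ← hne, if_neg (by simpa [Nat.even_add_one] using hj)]
      · rw [if_neg hj, if_pos (by simpa [Nat.even_add_one] using hj)]
        calc n⁻¹ * x⁻¹ * n = (n⁻¹ * x * n)⁻¹ := by group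
          _ = x := by rw [← hne, inv_inv]
  have := hpow k
  rw [if_neg (fun he => hodd he.two_dvd), hkC] at this
  exact hx2 this.symm

end CfsgLib.Fusion
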