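import Cfsg.Agent.Fusion.AbelianSylowReal
import Mathlib.GroupTheory.SpecificGroups.Alternating
import Mathlib.GroupTheory.SpecificGroups.Dihedral
import Mathlib.GroupTheory.SpecificGroups.KleinFour
import Mathlib.Data.ZMod.Basic
import Mathlib.Data.Fintype.Perm
import Mathlib.GroupTheory.SpecificGroups.Cyclic
import Mathlib.NumberTheory.Padics.PadicVal.Basic

/-!
# Automizers of abelian Sylow subgroups of alternating groups
-/

set_option autoImplicit false

namespace CfsgLib.Fusion.Alt

open Equiv Equiv.Perm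

/-- A real element of odd prime order which is a product of two `p`-cycles. -/
lemma exists_real_element {n p : ℕ} [Fact p.Prime] (hp2 : p ≠ 2) (hn : 2 * p ≤ n) :
    ∃ x g : alternatingGroup (Fin n), x ^ p = 1 ∧ x⁻¹ ≠ x ∧ g * x * g⁻¹ = x⁻¹ := by
  have : NeZero p := ⟨(Fact.out : p.Prime).ne_zero⟩
  let e : (ZMod p ⊕ ZMod p) ⊕ Fin (n - 2 * p) ≃ Fin n :=
    Fintype.equivFinOfCardEq (by simp [ZMod.card]; omega)
  let lift : Perm (ZMod p) → Perm (Fin n) := fun r =>
    e.permCongr (Equiv.sumCongr (Equiv.sumCongr r r) 1)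
  have hsign : ∀ r, lift r ∈ alternatingGroup (Fin n) := fun r => by
    rw [mem_alternatingGroup, sign_permCongr, sign_sumCongr, sign_sumCongr, map_one, mul_one,
      Int.units_mul_self]
  have hmul : ∀ r s, lift (r * s) = lift r * lift s := fun r s => by
    ext i
    simp [lift, Equiv.permCongr_apply]
    rcases e.symm i with (a | a) | a <;> rfl
  let r : Perm (ZMod p) := Equiv.addRight 1
  let m : Perm (ZMod p) := Equiv.neg _
  have hinj : ∀ a b, lift a = lift b → a = b := fun a b h => by
    ext i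
    have := congrArg (fun f : Perm (Fin n) => e.symm (f (e (Sum.inl (Sum.inl i))))) h
    simpa [lift, Equiv.permCongr_apply] using this
  let L : Perm (ZMod p) →* alternatingGroup (Fin n) :=
    MonoidHom.mk' (fun a => ⟨lift a, hsign a⟩) (fun a b => Subtype.ext (hmul a b))
  have hL : Function.Injective L := fun a b h => hinj a b (congrArg Subtype.val h)
  have hr : ∀ j : ℕ, ∀ x, (r ^ j) x = x + j := by
    intro j
    induction j with
    | zero => simp
    | succ j ih => intro x; rw [pow_succ', mul_apply, ih]; simp [r]; ring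
  refine ⟨L r, L m, ?_, ?_, ?_⟩
  · rw [← map_pow, ← map_one L]
    congr 1
    ext x
    simp [hr]
  · rw [← map_inv]
    intro h
    have h2 : (r ^ 2 : Perm (ZMod p)) = 1 := by
      rw [pow_two]; nth_rw 1 [← hL h]; exact inv_mul_cancel r
    have := congrArg (fun f : Perm (ZMod p) => f 0) h2
    simp only [hr, zero_add, Equiv.Perm.one_apply, ZMod.natCast_eq_zero_iff_even] at this
    rw [ZMod.natCast_eq_zero_iff] at this
    exact hp2 ((Nat.prime_dvd_prime_iff_eq Fact.out Nat.prime_two).1 this)
  · rw [← map_inv, ← map_inv, ← map_mul, ← map_mul]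
    congr 1
    ext x
    simp [m, r]
    ring

lemma isCyclic_sylow_of_lt {n p : ℕ} [Fact p.Prime] (hn : n < 2 * p)
    (P : Sylow p (alternatingGroup (Fin n))) :
    IsCyclic (P : Subgroup (alternatingGroup (Fin n))) := by
  obtain ⟨k, hk⟩ := IsPGroup.iff_card.1 P.isPGroup'
  have hdvd : p ^ k ∣ n.factorial := by
    have h1 : Nat.card (P : Subgroup (alternatingGroup (Fin n))) ∣
        Nat.card (alternatingGroup (Fin n)) := Subgroup.card_subgroup_dvd_card _
    have h2 : Nat.card (alternatingGroup (Fin n)) ∣ Nat.card (Perm (Fin n)) :=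
      Subgroup.card_subgroup_dvd_card _
    rw [Nat.card_perm, Nat.card_fin] at h2
    exact hk ▸ h1.trans h2
  have hp2 := (Fact.out : p.Prime).two_le
  have hk1 : k ≤ 1 := by
    have hfac : (n.factorial).factorization p ≤ 1 := by
      rw [Nat.factorization_def _ Fact.out,
        padicValNat_factorial (Nat.lt_succ_self (Nat.log p n))]
      calc ∑ i ∈ Finset.Ico 1 (Nat.log p n + 1), n / p ^ i
          ≤ ∑ i ∈ Finset.Ico 1 (Nat.log p n + 1), if i = 1 then 1 else 0 := by
            refine Finset.sum_le_sum fun i hi => ?_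
            have hi1 := (Finset.mem_Ico.1 hi).1
            split_ifs with h
            · subst h; rw [pow_one, Nat.div_le_iff_le_mul_add_pred (by omega)]; omega
            · rw [Nat.le_zero, Nat.div_eq_zero_iff]
              right
              calc n < 2 * p := hn
                _ ≤ p * p := Nat.mul_le_mul_right p hp2
                _ = p ^ 2 := (pow_two p).symm
                _ ≤ p ^ i := Nat.pow_le_pow_right (by omega) (by omega)
        _ ≤ 1 := by rw [Finset.sum_ite_eq']; split_ifs <;> simp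
    exact ((Fact.out : p.Prime).pow_dvd_iff_le_factorization n.factorial_ne_zero).1 hdvd |>.trans hfac
  rcases Nat.le_one_iff_eq_zero_or_eq_one.1 hk1 with rfl | rfl
  · have : Subsingleton (P : Subgroup (alternatingGroup (Fin n))) :=
      (Nat.card_eq_one_iff_unique.1 (by simpa using hk)).1
    exact isCyclic_of_subsingleton
  · exact isCyclic_of_prime_card (p := p) (by simpa using hk)

/-- The rotation and a reflection generating a dihedral subgroup of `A₆`. -/
def d8fun : DihedralGroup 4 → Perm (Fin 6)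
  | .r i => (swap 0 1 * swap 1 2 * swap 2 3 * swap 4 5 : Perm (Fin 6)) ^ i.val
  | .sr i => (swap 0 3 * swap 1 2 : Perm (Fin 6)) *
      (swap 0 1 * swap 1 2 * swap 2 3 * swap 4 5 : Perm (Fin 6)) ^ i.val

lemma d8fun_mul : ∀ a b : DihedralGroup 4, d8fun (a * b) = d8fun a * d8fun b := by
  intro a b
  rcases a with i | i <;> rcases b with j | j <;> revert i j <;> decide +kernel

lemma d8fun_sign : ∀ a : DihedralGroup 4, sign (d8fun a) = 1 := by
  intro a
  rcases a with i | i <;> revert i <;> decide +kernel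

lemma d8fun_noncomm :
    d8fun (.r 1) * d8fun (.sr 0) ≠ d8fun (.sr 0) * d8fun (.r 1) := by decide +kernel

/-- Sylow `2`-subgroups of `Aₙ`, `n ≥ 6`, are not abelian. -/
lemma not_isMulCommutative_two {n : ℕ} (hn : 6 ≤ n) [Fact (2 : ℕ).Prime]
    (P : Sylow 2 (alternatingGroup (Fin n))) :
    ¬ IsMulCommutative (P : Subgroup (alternatingGroup (Fin n))) := by
  intro hP
  let e : Fin 6 ⊕ Fin (n - 6) ≃ Fin n := Fintype.equivFinOfCardEq (by simp; omega)
  let L : DihedralGroup 4 →* alternatingGroup (Fin n) :=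
    MonoidHom.mk' (fun a => ⟨e.permCongr (Equiv.sumCongr (d8fun a) 1), by
      rw [mem_alternatingGroup, sign_permCongr, sign_sumCongr, d8fun_sign, map_one, mul_one]⟩)
      (fun a b => Subtype.ext (by
        ext i
        simp [d8fun_mul, Equiv.permCongr_apply]))
  have hH : IsPGroup 2 L.range := by
    have h : IsPGroup 2 (DihedralGroup 4) := IsPGroup.of_card (n := 3) (by rw [DihedralGroup.nat_card]; norm_num)
    exact MonoidHom.range_eq_map L ▸ (h.to_subgroup ⊤).map L
  obtain ⟨Q, hQ⟩ := hH.exists_le_sylow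
  obtain ⟨g, hg⟩ := MulAction.exists_smul_eq (alternatingGroup (Fin n)) Q P
  have hmem : ∀ a, g * L a * g⁻¹ ∈ (P : Subgroup (alternatingGroup (Fin n))) := fun a => by
    rw [← hg]; exact ⟨L a, hQ ⟨a, rfl⟩, rfl⟩
  have hc := congrArg Subtype.val (hP.is_comm.comm ⟨_, hmem (.r 1)⟩ ⟨_, hmem (.sr 0)⟩)
  have h' : L (.r 1) * L (.sr 0) = L (.sr 0) * L (.r 1) := by
    apply (MulAut.conj g).injective
    rw [map_mul, map_mul]
    exact hc
  refine d8fun_noncomm (Equiv.ext fun i => ?_)
  have := congrArg (fun f : alternatingGroup (Fin n) =>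
    e.symm ((f : Perm (Fin n)) (e (Sum.inl i)))) h'
  simpa [L, Equiv.permCongr_apply] using this

lemma alt5_exponent : ∀ g : alternatingGroup (Fin 5), g * g * (g * g) = 1 → g * g = 1 := by
  decide +kernel

lemma alt5_involution : ∀ a : alternatingGroup (Fin 5), a ≠ 1 → a * a = 1 →
    Fintype.card {g : alternatingGroup (Fin 5) // g * a = a * g} = 4 ∧
      Fintype.card {g : alternatingGroup (Fin 5) // g * a * g⁻¹ * a = a * (g * a * g⁻¹)} = 12 := by
  decide +kernel

lemma alt5 [Fact (2 : ℕ).Prime] (P : Sylow 2 (alternatingGroup (Fin 5))) :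
    ((Subgroup.centralizer ((P : Subgroup (alternatingGroup (Fin 5))) : Set (alternatingGroup (Fin 5)))).subgroupOf
      (Subgroup.normalizer ((P : Subgroup (alternatingGroup (Fin 5))) : Set (alternatingGroup (Fin 5))))).index = 3 ∧
    IsKleinFour (P : Subgroup (alternatingGroup (Fin 5))) := by
  set Q : Subgroup (alternatingGroup (Fin 5)) := (P : Subgroup (alternatingGroup (Fin 5))) with hQ
  have hcard : Nat.card Q = 4 := by
    rw [hQ, P.card_eq_multiplicity, nat_card_alternatingGroup, Nat.card_fin]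
    rw [show (5 : ℕ).factorial / 2 = 2 ^ 2 * 15 by decide,
      Nat.factorization_def _ Nat.prime_two, padicValNat.mul (by norm_num) (by norm_num),
      padicValNat.prime_pow, padicValNat.eq_zero_of_not_dvd (by norm_num : ¬ 2 ∣ 15)]
    rfl
  have hsq : ∀ x ∈ Q, x * x = 1 := fun x hx => by
    refine alt5_exponent x ?_
    have h4 : x ^ 4 = 1 := by
      have : (⟨x, hx⟩ : Q) ^ Nat.card Q = 1 := pow_card_eq_one'
      rw [hcard] at this
      exact congrArg Subtype.val this
    rw [← h4]
    simp [pow_succ, mul_assoc]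
  have hcomm : ∀ x ∈ Q, ∀ y ∈ Q, x * y = y * x := fun x hx y hy => by
    have ix := inv_eq_of_mul_eq_one_right (hsq x hx)
    have iy := inv_eq_of_mul_eq_one_right (hsq y hy)
    have ixy := inv_eq_of_mul_eq_one_right (hsq _ (mul_mem hx hy))
    rw [← ixy, mul_inv_rev, ix, iy]
  have : Nontrivial Q := Finite.one_lt_card_iff_nontrivial.1 (by rw [hcard]; norm_num)
  refine ⟨?_, ⟨hcard, ?_⟩⟩
  swap
  · refine (Monoid.exponent_eq_prime_iff Nat.prime_two).2 fun x hx => orderOf_eq_prime ?_ hx
    exact Subtype.ext (by rw [pow_two]; exact hsq x x.2)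
  obtain ⟨⟨a, ha⟩, ha1⟩ := exists_ne (1 : Q)
  have hCa : ∀ b ∈ Q, b ≠ 1 → ∀ g, g * b = b * g → g ∈ Q := by
    intro b hb hb1 g hg
    have h4 := (alt5_involution b hb1 (hsq b hb)).1
    rw [← Nat.card_eq_fintype_card] at h4
    have hle : Q ≤ Subgroup.centralizer {b} := fun x hx => by
      rw [Subgroup.mem_centralizer_singleton_iff]; exact hcomm x hx b hb
    have hc : Nat.card (Subgroup.centralizer ({b} : Set (alternatingGroup (Fin 5)))) = 4 := by
      rw [← h4]
      exact Nat.card_congr (Equiv.subtypeEquivRight fun x => Subgroup.mem_centralizer_singleton_iff)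
    rw [Subgroup.eq_of_le_of_card_ge hle (by rw [hc, hcard])]
    exact Subgroup.mem_centralizer_singleton_iff.2 hg
  have ha1' : a ≠ 1 := fun h => ha1 (Subtype.ext h)
  have hC : Subgroup.centralizer (Q : Set (alternatingGroup (Fin 5))) = Q := by
    refine le_antisymm (fun g hg => hCa a ha ha1' g ?_) fun g hg => ?_
    · exact (Subgroup.mem_centralizer_iff.1 hg a ha).symm
    · exact Subgroup.mem_centralizer_iff.2 fun x hx => hcomm x hx g hg
  have hN : ∀ g, g ∈ Subgroup.normalizer (Q : Set (alternatingGroup (Fin 5))) ↔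
      g * a * g⁻¹ * a = a * (g * a * g⁻¹) := by
    intro g
    constructor
    · intro hg
      exact hcomm _ ((Subgroup.mem_normalizer_iff.1 hg a).1 ha) a ha
    · intro hg
      have hb : g * a * g⁻¹ ∈ Q := hCa a ha ha1' _ hg
      have hb1 : g * a * g⁻¹ ≠ 1 := fun h => ha1' ((MulAut.conj g).injective (by rw [map_one]; exact h))
      refine Subgroup.mem_normalizer_iff.2 fun x => ⟨fun hx => ?_, fun hx => ?_⟩
      · refine hCa _ hb hb1 _ ?_
        rw [← MulAut.conj_apply, ← MulAut.conj_apply, ← map_mul, ← map_mul, hcomm x hx a ha]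
      · refine hCa a ha ha1' _ ((MulAut.conj g).injective ?_)
        rw [map_mul, map_mul]
        exact hcomm _ hx _ hb
  have hNc : Nat.card (Subgroup.normalizer (Q : Set (alternatingGroup (Fin 5)))) = 12 := by
    rw [← (alt5_involution a ha1' (hsq a ha)).2, ← Nat.card_eq_fintype_card]
    exact Nat.card_congr (Equiv.subtypeEquivRight hN)
  have hle : Q ≤ Subgroup.normalizer (Q : Set (alternatingGroup (Fin 5))) := Subgroup.le_normalizer
  have := (Q.subgroupOf (Subgroup.normalizer (Q : Set (alternatingGroup (Fin 5))))).card_mul_index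
  rw [Nat.card_congr (Subgroup.subgroupOfEquivOfLe hle).toEquiv, hcard, hNc] at this
  rw [hC]
  omega

theorem automizer (n : ℕ) (hn : 5 ≤ n) {p : ℕ} [Fact p.Prime]
    (P : Sylow p (alternatingGroup (Fin n)))
    (hP : IsMulCommutative (P : Subgroup (alternatingGroup (Fin n)))) :
    (¬ (n = 5 ∧ p = 2) → 2 ∣ ((Subgroup.centralizer ((P : Subgroup (alternatingGroup (Fin n))) : Set (alternatingGroup (Fin n)))).subgroupOf (Subgroup.normalizer ((P : Subgroup (alternatingGroup (Fin n))) : Set (alternatingGroup (Fin n))))).index ∨ IsCyclic (P : Subgroup (alternatingGroup (Fin n)))) ∧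
    ((n = 5 ∧ p = 2) → ((Subgroup.centralizer ((P : Subgroup (alternatingGroup (Fin n))) : Set (alternatingGroup (Fin n)))).subgroupOf (Subgroup.normalizer ((P : Subgroup (alternatingGroup (Fin n))) : Set (alternatingGroup (Fin n))))).index = 3 ∧ IsKleinFour (P : Subgroup (alternatingGroup (Fin n)))) := by
  constructor
  · intro hne
    rcases lt_or_ge n (2 * p) with hlt | hge
    · exact Or.inr (isCyclic_sylow_of_lt hlt P)
    by_cases hp2 : p = 2
    · subst hp2
      exact absurd hP (not_isMulCommutative_two (by omega) P)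
    left
    obtain ⟨x, g, hxp, hx, hg⟩ := exists_real_element hp2 hge
    have hX : IsPGroup p (Subgroup.zpowers x) := by
      obtain ⟨i, -, hi⟩ := (Nat.dvd_prime_pow (Fact.out : p.Prime)).1
        (show orderOf x ∣ p ^ 1 by rw [pow_one]; exact orderOf_dvd_of_pow_eq_one hxp)
      exact IsPGroup.of_card (n := i) (by rw [Nat.card_zpowers, hi])
    obtain ⟨Q, hQ⟩ := hX.exists_le_sylow
    obtain ⟨c, hc⟩ := MulAction.exists_smul_eq (alternatingGroup (Fin n)) Q P
    refine two_dvd_automizer_of_real P hP (x := c * x * c⁻¹) ?_ ?_ (isConj_iff.2 ⟨c * g * c⁻¹, ?_⟩)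
    · rw [← hc]; exact ⟨x, hQ (Subgroup.mem_zpowers x), rfl⟩
    · intro h
      exact hx ((MulAut.conj c).injective (by rw [map_inv]; exact h))
    · rw [show c * g * c⁻¹ * (c * x * c⁻¹) * (c * g * c⁻¹)⁻¹ = c * (g * x * g⁻¹) * c⁻¹ by group, hg]
      group
  · rintro ⟨rfl, rfl⟩
    exact alt5 P

end CfsgLib.Fusion.Alt
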